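import Cfsg.Agent.H691.AN.Defs
import Cfsg.Agent.CharactersDeep.CliffordSum
import Cfsg.Agent.CharactersDeep.ExtUnique
import Cfsg.Agent.OddOrderCharacters.IndRes
import Cfsg.Agent.OddOrderCharacters.PrimeTI
import Cfsg.Agent.H456.FourA
import Cfsg.Agent.S4454
import Cfsg.Agent.H424.DegTools
import Cfsg.Agent.H597.Degrees

/-!
# S4766, piece B8: characters of degree prime to `|G : M|` over a Frobenius section
-/

set_option autoImplicit false

namespace Cfsg.Agent.H104.AN

open Cfsg Cfsg.Agent.H691.AN Cfsg.Agent.Characters.Core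
open Cfsg.Agent.OddOrderCharacters.NormalInduced Cfsg.Agent.OddOrderCharacters.IndRes
open scoped ComplexConjugate

universe u

section act
variable {G : Type u} [Group G] (N M : Subgroup G) [N.Normal] [M.Normal]

theorem map_conj (g : G) : (N.subgroupOf M).map ((MulAut.conjNormal g : MulAut M) : M →* M) = N.subgroupOf M := by
  ext m
  constructor
  · rintro ⟨y, hy, rfl⟩
    exact Subgroup.Normal.conj_mem (inferInstance : N.Normal) (y : G) hy g
  · intro hm
    refine ⟨MulAut.conjNormal g⁻¹ m, Subgroup.Normal.conj_mem (inferInstance : N.Normal) (m : G) hm g⁻¹, ?_⟩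
    apply Subtype.ext
    show g * (g⁻¹ * m * g⁻¹⁻¹) * g⁻¹ = m
    group

/-- the action of `G` on `M / N` -/
noncomputable def act : G →* MulAut (M ⧸ N.subgroupOf M) where
  toFun g := QuotientGroup.congr _ _ (MulAut.conjNormal g) (map_conj N M g)
  map_one' := by
    apply MulEquiv.ext
    intro u
    obtain ⟨m, rfl⟩ := QuotientGroup.mk_surjective u
    show (QuotientGroup.mk (MulAut.conjNormal 1 m) : M ⧸ N.subgroupOf M) = QuotientGroup.mk m
    rw [map_one]
    rfl
  map_mul' g h := by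
    apply MulEquiv.ext
    intro u
    obtain ⟨m, rfl⟩ := QuotientGroup.mk_surjective u
    show (QuotientGroup.mk (MulAut.conjNormal (g * h) m) : M ⧸ N.subgroupOf M) = _
    rw [map_mul]
    rfl

theorem act_mk (g : G) (m : M) :
    act N M g (m : M ⧸ N.subgroupOf M) = ((MulAut.conjNormal g m : M) : M ⧸ N.subgroupOf M) := rfl

end act

section frob
variable {G : Type u} [Group G] {N M : Subgroup G} {q a : ℕ} [N.Normal] [M.Normal]

theorem act_fixed (hF : Frob G N M q a) {x : G} (hx : x ∉ M) {u : M ⧸ N.subgroupOf M}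
    (h : act N M x u = u) : u = 1 := by
  obtain ⟨m, rfl⟩ := QuotientGroup.mk_surjective u
  have h1 : x * m * x⁻¹ * (m : G)⁻¹ ∈ N := by
    have h2 : act N M x (m : M ⧸ N.subgroupOf M) * (m : M ⧸ N.subgroupOf M)⁻¹ = 1 := by
      rw [h, mul_inv_cancel]
    rw [act_mk] at h2
    exact (QuotientGroup.eq_one_iff (N := N.subgroupOf M) (MulAut.conjNormal x m * m⁻¹)).1 h2
  exact (QuotientGroup.eq_one_iff (N := N.subgroupOf M) m).2 (hF.free x hx m m.2 h1)

omit [M.Normal] in
theorem quot_comm (hF : Frob G N M q a) (u v : M ⧸ N.subgroupOf M) : u * v = v * u := by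
  obtain ⟨x, rfl⟩ := QuotientGroup.mk_surjective u
  obtain ⟨y, rfl⟩ := QuotientGroup.mk_surjective v
  have h1 : ((x * y * x⁻¹ * y⁻¹ : M) : M ⧸ N.subgroupOf M) = 1 := by
    rw [QuotientGroup.eq_one_iff]
    exact hF.abel (Subgroup.commutator_mem_commutator x.2 y.2)
  have h2 : (x : M ⧸ N.subgroupOf M) * y * (x : M ⧸ N.subgroupOf M)⁻¹ * (y : M ⧸ N.subgroupOf M)⁻¹ = 1 := h1
  rwa [mul_inv_eq_one, mul_inv_eq_iff_eq_mul] at h2

theorem act_of_mem (hF : Frob G N M q a) {x : G} (hx : x ∈ M) : act N M x = 1 := by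
  apply MulEquiv.ext
  intro u
  obtain ⟨m, rfl⟩ := QuotientGroup.mk_surjective u
  rw [act_mk]
  have h1 : ((MulAut.conjNormal x m : M) : M ⧸ N.subgroupOf M)
      = ((⟨x, hx⟩ : M) : M ⧸ N.subgroupOf M) * m * (((⟨x, hx⟩ : M) : M ⧸ N.subgroupOf M))⁻¹ := rfl
  rw [h1, quot_comm hF, inv_mul_cancel_left]
  rfl

theorem cyclic_quot [Finite G] (hF : Frob G N M q a) : IsCyclic (G ⧸ M) := by
  by_contra hnc
  have hne : ∃ w ∈ M, w ∉ N := by
    by_contra hcon
    push Not at hcon
    have h1 : N.relIndex M = 1 := Subgroup.relIndex_eq_one.2 hcon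
    rw [hF.card] at h1
    exact absurd h1 (Nat.one_lt_pow hF.pos.ne' hF.prime.one_lt).ne'
  obtain ⟨w, hwM, hwN⟩ := hne
  let φ : G ⧸ M →* MulAut (M ⧸ N.subgroupOf M) := QuotientGroup.lift M (act N M) (fun x hx => act_of_mem hF hx)
  obtain ⟨b, -, hb1, u, -, hu1, hu⟩ := H456.exists_fixed_of_not_cyclic φ (⊤ : Subgroup (M ⧸ N.subgroupOf M))
    (fun x _ y _ => quot_comm hF x y) (by
      intro h0
      have h1 : ((⟨w, hwM⟩ : M) : M ⧸ N.subgroupOf M) ∈ (⊤ : Subgroup (M ⧸ N.subgroupOf M)) := Subgroup.mem_top _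
      rw [h0, Subgroup.mem_bot, QuotientGroup.eq_one_iff] at h1
      exact hwN h1) (⊤ : Subgroup (G ⧸ M))
    (by
      intro x _ y _
      obtain ⟨x, rfl⟩ := QuotientGroup.mk_surjective x
      obtain ⟨y, rfl⟩ := QuotientGroup.mk_surjective y
      have h1 : ((x * y * x⁻¹ * y⁻¹ : G) : G ⧸ M) = 1 := by
        rw [QuotientGroup.eq_one_iff]
        exact hF.comm (Subgroup.commutator_mem_commutator (Subgroup.mem_top x) (Subgroup.mem_top y))
      have h2 : (x : G ⧸ M) * y * (x : G ⧸ M)⁻¹ * (y : G ⧸ M)⁻¹ = 1 := h1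
      rwa [mul_inv_eq_one, mul_inv_eq_iff_eq_mul] at h2)
    (fun hc => hnc (Subgroup.topEquiv.isCyclic.1 hc)) (fun _ _ _ _ => Subgroup.mem_top _)
  obtain ⟨x, rfl⟩ := QuotientGroup.mk_surjective b
  exact hu1 (act_fixed hF (fun hx => hb1 ((QuotientGroup.eq_one_iff x).2 hx)) hu)

end frob

theorem closure_normal {G : Type u} [Group G] {S : Set G} (h : ∀ s ∈ S, ∀ g : G, g * s * g⁻¹ ∈ S) :
    (Subgroup.closure S).Normal := by
  refine ⟨fun n hn g => ?_⟩
  induction hn using Subgroup.closure_induction with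
  | mem x hx => exact Subgroup.subset_closure (h x hx g)
  | one => simp
  | mul x y _ _ ihx ihy =>
    have e : g * (x * y) * g⁻¹ = (g * x * g⁻¹) * (g * y * g⁻¹) := by group
    rw [e]
    exact Subgroup.mul_mem _ ihx ihy
  | inv x _ ihx =>
    have e : g * x⁻¹ * g⁻¹ = (g * x * g⁻¹)⁻¹ := by group
    rw [e]
    exact Subgroup.inv_mem _ ihx

/-- case A: the set where `θ` does not vanish generates `M` modulo `N` -/
theorem caseA {G : Type u} [Group G] [Fintype G] {N M : Subgroup G} {q a : ℕ} [N.Normal] [M.Normal]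
    (hF : Frob G N M q a) {χ : G → ℂ} {d : ℕ} (hχ : IsIrrCharacter G χ) (hd : χ 1 = d)
    (hθ : IsIrrCharacter M (fun m : M => χ m))
    (hK : ∀ L : Subgroup M, N.subgroupOf M ≤ L → (∀ m : M, χ m ≠ 0 → m ∈ L) → L = ⊤) :
    M.index * d ∈ charDegrees G := by
  classical
  have hne : ∃ w ∈ M, w ∉ N := by
    by_contra hcon
    push Not at hcon
    have h1 : N.relIndex M = 1 := Subgroup.relIndex_eq_one.2 hcon
    rw [hF.card] at h1
    exact absurd h1 (Nat.one_lt_pow hF.pos.ne' hF.prime.one_lt).ne'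
  obtain ⟨w, hwM, hwN⟩ := hne
  have hw1 : ((⟨w, hwM⟩ : M) : M ⧸ N.subgroupOf M) ∉ (⊥ : Subgroup (M ⧸ N.subgroupOf M)) := by
    rw [Subgroup.mem_bot, QuotientGroup.eq_one_iff]
    exact hwN
  obtain ⟨ν0, -, hν0⟩ := OddOrderCharacters.PrimeTI.exists_hom_ne_one ⟨⟨quot_comm hF⟩⟩ _ hw1
  let ν : M →* ℂˣ := ν0.comp (QuotientGroup.mk' (N.subgroupOf M))
  have hνN : ∀ n : M, (n : G) ∈ N → ν n = 1 := by
    intro n hn
    have h1 : (QuotientGroup.mk' (N.subgroupOf M)) n = 1 := (QuotientGroup.eq_one_iff n).2 hn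
    show ν0 ((QuotientGroup.mk' (N.subgroupOf M)) n) = 1
    rw [h1, map_one]
  have hψ := CharactersDeep.ExtUnique.isIrr_mul_hom hθ ν
  have hst : ∀ g : G, conjFn M (fun m : M => χ m * (ν m : ℂ)) g = (fun m : M => χ m * (ν m : ℂ)) → g ∈ M := by
    intro g hg
    by_contra hgM
    let L : Subgroup M := MonoidHom.eqLocus (ν.comp (MulAut.conjNormal g : MulAut M).toMonoidHom) ν
    have hL : L = ⊤ := by
      refine hK L ?_ ?_
      · intro n hn
        show ν (MulAut.conjNormal g n) = ν n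
        rw [hνN n hn, hνN]
        exact Subgroup.Normal.conj_mem (inferInstance : N.Normal) (n : G) hn g
      · intro m hm
        show ν (MulAut.conjNormal g m) = ν m
        have h1 := congrFun hg m
        rw [conjFn_apply] at h1
        have h2 : χ (g * m * g⁻¹) = χ m := isIrr_isClassFunction hχ m g
        simp only [h2] at h1
        have h3 := mul_left_cancel₀ hm h1
        exact Units.ext h3
    have hinj : Function.Injective (fun u : M ⧸ N.subgroupOf M => act N M g u * u⁻¹) := by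
      intro u v huv
      have h1 : act N M g u * u⁻¹ = act N M g v * v⁻¹ := huv
      have h2 : act N M g (v⁻¹ * u) = v⁻¹ * u := by
        rw [map_mul, map_inv]
        rw [mul_inv_eq_iff_eq_mul] at h1
        rw [h1, mul_assoc, inv_mul_cancel_left]
      have h3 := act_fixed hF hgM h2
      rw [inv_mul_eq_one] at h3
      exact h3.symm
    have hsur := Finite.injective_iff_surjective.1 hinj
    obtain ⟨u, hu⟩ := hsur ((⟨w, hwM⟩ : M) : M ⧸ N.subgroupOf M)
    obtain ⟨m, rfl⟩ := QuotientGroup.mk_surjective u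
    apply hν0
    rw [← hu]
    show ν0 (act N M g (m : M ⧸ N.subgroupOf M) * (m : M ⧸ N.subgroupOf M)⁻¹) = 1
    rw [map_mul, map_inv, act_mk]
    have h1 : m ∈ L := by rw [hL]; exact Subgroup.mem_top m
    have h2 : ν (MulAut.conjNormal g m) = ν m := h1
    have h3 : ν0 ((MulAut.conjNormal g m : M) : M ⧸ N.subgroupOf M) = ν0 (m : M ⧸ N.subgroupOf M) := h2
    rw [h3, mul_inv_cancel]
  refine H424.DegTools.mem_charDegrees.2 ⟨_, isIrr_indFun_of_stabilizer M hψ hst, ?_⟩
  rw [indFun_apply_one]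
  simp only [OneMemClass.coe_one, map_one, Units.val_one, mul_one, hd]
  push_cast
  ring

/-- transport of functions from `N` to `N.subgroupOf M` -/
def tr {G : Type u} [Group G] {N M : Subgroup G} (f : N → ℂ) : N.subgroupOf M → ℂ :=
  fun x => f ⟨(x : M), Subgroup.mem_subgroupOf.mp x.2⟩

theorem tr_inj {G : Type u} [Group G] {N M : Subgroup G} (hNM : N ≤ M) {f f' : N → ℂ}
    (h : (tr f : N.subgroupOf M → ℂ) = tr f') : f = f' := by
  funext n
  exact congrFun h ⟨⟨n, hNM n.2⟩, n.2⟩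

theorem tr_irr {G : Type u} [Group G] {N M : Subgroup G} (hNM : N ≤ M) {f : N → ℂ}
    (h : IsIrrCharacter N f) : IsIrrCharacter (N.subgroupOf M) (tr f) :=
  isIrr_comp (Subgroup.subgroupOfEquivOfLe hNM).toMonoidHom (Subgroup.subgroupOfEquivOfLe hNM).surjective h

theorem tr_inner {G : Type u} [Group G] {N M : Subgroup G} [Fintype N] [Fintype (N.subgroupOf M)] (hNM : N ≤ M)
    (f f' : N → ℂ) : classInner (tr f : N.subgroupOf M → ℂ) (tr f') = classInner f f' := by
  rw [classInner_def, classInner_def, Nat.card_congr (Subgroup.subgroupOfEquivOfLe hNM).toEquiv]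
  congr 1
  exact Fintype.sum_equiv (Subgroup.subgroupOfEquivOfLe hNM).toEquiv _ _ (fun x => rfl)

theorem sum_subgroup {A : Type u} [Group A] [Fintype A] (B : Subgroup A) [Fintype B] (f : A → ℂ)
    (h : ∀ x, x ∉ B → f x = 0) : ∑ x : A, f x = ∑ b : B, f b := by
  classical
  rw [← Finset.sum_subtype (Finset.univ.filter (· ∈ B)) (fun x => by simp) f]
  refine (Finset.sum_subset (Finset.subset_univ _) ?_).symm
  intro x _ hx
  exact h x (fun hB => hx (Finset.mem_filter.2 ⟨Finset.mem_univ _, hB⟩))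

/-- the norm of the restriction to `B` of an irreducible character vanishing off `B` -/
theorem norm_res {A : Type u} [Group A] [Fintype A] (B : Subgroup A) [Fintype B] {θ : A → ℂ}
    (hθ : IsIrrCharacter A θ) (h : ∀ x, x ∉ B → θ x = 0) :
    classInner (fun b : B => θ b) (fun b : B => θ b) = B.index := by
  have h1 := classInner_irr_self hθ
  rw [classInner_def, sum_subgroup B _ (fun x hx => by rw [h x hx, zero_mul])] at h1
  rw [classInner_def]
  have h2 : (Nat.card B : ℂ) * B.index = Nat.card A := by exact_mod_cast B.card_mul_index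
  have hA : (Nat.card A : ℂ) ≠ 0 := card_ne_zero_complex
  have hB : (Nat.card B : ℂ) ≠ 0 := card_ne_zero_complex
  have hB' : (B.index : ℂ) ≠ 0 := by
    exact_mod_cast Subgroup.index_ne_zero_of_finite
  rw [← h2] at h1
  field_simp at h1 ⊢
  rw [h1]

/-- case B: `χ` vanishes on `M` outside `N` -/
theorem caseB {G : Type u} [Group G] [Fintype G] {N M : Subgroup G} {q a : ℕ} [hNn : N.Normal] [M.Normal]
    (hF : Frob G N M q a) {χ : G → ℂ} {d : ℕ} (hχ : IsIrrCharacter G χ) (hd : χ 1 = d)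
    (hθ : IsIrrCharacter M (fun m : M => χ m)) (hv : ∀ m ∈ M, m ∉ N → χ m = 0) :
    q ^ a ∣ d ∨ ∃ e : ℕ, e ^ 2 = q ^ a ∧ e ∣ d ∧ (M.index ∣ e - 1 ∨ M.index ∣ e + 1) := by
  classical
  have hNM := hF.le
  set θ : M → ℂ := fun m : M => χ m with hθdef
  -- a constituent
  have hχN : IsCharacter N (fun n : N => χ n) := isCharacter_comp N.subtype (isIrr_isCharacter hχ)
  obtain ⟨φ, hφ, hφ0⟩ : ∃ φ : N → ℂ, IsIrrCharacter N φ ∧ classInner (fun n : N => χ n) φ ≠ 0 := by
    by_contra hcon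
    push Not at hcon
    have h0 := classFunction_eq_zero (isCharacter_isClassFunction hχN) hcon
    have h2 := congrFun h0 1
    simp only [Pi.zero_apply, OneMemClass.coe_one] at h2
    exact isIrr_apply_one_ne_zero hχ h2
  have hres : (fun x : N.subgroupOf M => θ x) = tr (fun n : N => χ n) := rfl
  have hin : ∀ f : N → ℂ, classInner (fun x : N.subgroupOf M => θ x) (tr f) = classInner (fun n : N => χ n) f := by
    intro f
    rw [hres, tr_inner hNM]
  have htc : ∀ m : M, (tr (conjFn N φ (m : G)) : N.subgroupOf M → ℂ)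
      = (tr φ) ∘ (MulAut.conjNormal m : MulAut (N.subgroupOf M)) := fun m => rfl
  -- `G`-conjugates are `M`-conjugates
  have hconj : ∀ g : G, ∃ m : M, conjFn N φ g = conjFn N φ (m : G) := by
    intro g
    have h1 : classInner (fun n : N => χ n) (conjFn N φ g) ≠ 0 := by
      have h2 := classInner_conjFn N (res N χ) φ g
      rw [conjFn_res N (isIrr_isClassFunction hχ)] at h2
      have h3 : classInner (fun n : N => χ n) (conjFn N φ g) = classInner (fun n : N => χ n) φ := h2
      rw [h3]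
      exact hφ0
    obtain ⟨m, hm⟩ := Characters.Clifford.exists_conj_of_constituents (N.subgroupOf M) hθ (tr_irr hNM hφ)
      (tr_irr hNM (isIrr_conjFn N hφ g)) (by rw [hin]; exact hφ0) (by rw [hin]; exact h1)
    refine ⟨m, tr_inj hNM ?_⟩
    rw [hm, htc]
  -- the inertia group in `M`
  let T : Subgroup G :=
    { carrier := {g | g ∈ M ∧ conjFn N φ g = φ}
      one_mem' := ⟨M.one_mem, conjFn_one N φ⟩
      mul_mem' := by
        rintro x y ⟨hx, hx'⟩ ⟨hy, hy'⟩
        exact ⟨M.mul_mem hx hy, by rw [conjFn_mul, hx', hy']⟩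
      inv_mem' := by
        rintro x ⟨hx, hx'⟩
        refine ⟨M.inv_mem hx, ?_⟩
        have h1 := conjFn_mul N φ x x⁻¹
        rw [hx', mul_inv_cancel, conjFn_one] at h1
        exact h1.symm }
  have hTM : T ≤ M := fun x hx => hx.1
  have hNT : N ≤ T := fun x hx => ⟨hNM hx, conjFn_of_mem N (isIrr_isClassFunction hφ) hx⟩
  have hTn : T.Normal := by
    refine ⟨fun t ht g => ⟨Subgroup.Normal.conj_mem inferInstance t ht.1 g, ?_⟩⟩
    rw [← conjFn_eq_iff, conjFn_mul]
    obtain ⟨m, hm⟩ := hconj g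
    rw [hm, ← conjFn_mul]
    have h1 : (m : G) * t = ((m : G) * t * (m : G)⁻¹ * t⁻¹) * (t * m) := by group
    have h2 : (m : G) * t * (m : G)⁻¹ * t⁻¹ ∈ N :=
      hF.abel (Subgroup.commutator_mem_commutator m.2 ht.1)
    rw [h1, conjFn_mul, conjFn_of_mem N (isIrr_isClassFunction hφ) h2, conjFn_mul, ht.2]
  have he := isCharacter_comp (N.subgroupOf M).subtype (isIrr_isCharacter hθ)
  obtain ⟨e, he⟩ := classInner_isNat he (isIrr_isCharacter (tr_irr hNM hφ))
  have he' : classInner (fun x : N.subgroupOf M => θ x) (tr φ) = (e : ℂ) := he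
  have he0 : e ≠ 0 := by
    rintro rfl
    rw [hin] at he'
    exact hφ0 (by rw [he']; simp)
  have he1 : classInner (fun x : N.subgroupOf M => θ x) (tr φ) ≠ 0 := by rw [hin]; exact hφ0
  have hsum := CharactersDeep.CliffordSum.restrict_eq_smul_sum (N.subgroupOf M) hθ (tr_irr hNM hφ) he1
  have hnorm := CharactersDeep.CliffordSum.classInner_restrict_self_eq (N.subgroupOf M) hθ (tr_irr hNM hφ) he' he0
  have hcard := CharactersDeep.CliffordSum.card_conj_mul_card (N.subgroupOf M) (tr φ) (T.subgroupOf M) (by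
    intro m
    rw [← htc]
    constructor
    · intro hm
      rw [(show (m : G) ∈ T from hm).2]
    · intro hm
      exact ⟨m.2, tr_inj hNM hm⟩)
  obtain ⟨f, hf0, hf⟩ := isIrr_apply_one hφ
  set F := Finset.univ.image (fun x : M => (tr φ : N.subgroupOf M → ℂ) ∘
    (MulAut.conjNormal x : MulAut (N.subgroupOf M))) with hFdef
  -- the degree
  have hdeg : d = e * (F.card * f) := by
    have h1 := congrFun hsum 1
    rw [he'] at h1
    have h2 : ∀ ψ ∈ F, ψ 1 = (f : ℂ) := by
      intro ψ hψ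
      obtain ⟨x, -, rfl⟩ := Finset.mem_image.1 hψ
      show tr φ (MulAut.conjNormal x 1) = (f : ℂ)
      rw [map_one]
      exact hf
    have h3 : (∑ ψ ∈ F, ψ) 1 = (F.card : ℂ) * f := by
      rw [Finset.sum_apply, Finset.sum_congr rfl h2, Finset.sum_const, nsmul_eq_mul]
    have h4 : ((e : ℂ) • ∑ ψ ∈ F, ψ) 1 = (e : ℂ) * ((F.card : ℂ) * f) := by
      rw [Pi.smul_apply, h3, smul_eq_mul]
    rw [h4] at h1
    have h5 : (d : ℂ) = (e : ℂ) * ((F.card : ℂ) * f) := by
      rw [← hd, ← h1]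
      rfl
    exact_mod_cast h5
  have hq : (N.subgroupOf M).index = q ^ a := hF.card
  rcases hF.chief T hTn hNT hTM with hT | hT
  · left
    rw [hT] at hcard
    have h1 : F.card = q ^ a := by
      rw [← hq]
      have h2 := (N.subgroupOf M).card_mul_index
      have h3 : 0 < Nat.card (N.subgroupOf M) := Nat.card_pos
      rw [← hcard, mul_comm] at h2
      exact (Nat.eq_of_mul_eq_mul_right h3 h2).symm
    rw [hdeg, h1]
    exact ⟨e * f, by ring⟩
  · right
    rw [hT, Subgroup.subgroupOf_self] at hcard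
    have h1 : F.card = 1 := by
      rw [Subgroup.card_top] at hcard
      exact Nat.eq_of_mul_eq_mul_right Nat.card_pos (by rw [hcard, one_mul])
    have hvan : ∀ x : M, x ∉ N.subgroupOf M → θ x = 0 := fun x hx => hv x x.2 hx
    have h2 := norm_res (N.subgroupOf M) hθ hvan
    rw [hnorm, h1, mul_one, hq] at h2
    have h3 : e ^ 2 = q ^ a := by exact_mod_cast h2
    have hF1 : F = {tr φ} := by
      obtain ⟨y, hy⟩ := Finset.card_eq_one.1 h1
      have h4 : (tr φ : N.subgroupOf M → ℂ) ∈ F := Finset.mem_image.2 ⟨1, Finset.mem_univ _, by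
        rw [map_one]; rfl⟩
      rw [hy, Finset.mem_singleton] at h4
      rw [hy, h4]
    rw [hF1, Finset.sum_singleton, he'] at hsum
    have hGinv : ∀ g : G, conjFn N φ g = φ := by
      intro g
      obtain ⟨m, hm⟩ := hconj g
      rw [hm]
      exact (show (m : G) ∈ T by rw [hT]; exact m.2).2
    have hram : indFun (N.subgroupOf M) (tr φ) = fun g => (e : ℂ) * θ g := by
      funext x
      by_cases hx : x ∈ N.subgroupOf M
      · have h4 := CharactersDeep.NormalInd.indFun_of_invariant (N.subgroupOf M) (tr φ : N.subgroupOf M → ℂ) (by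
          intro m n
          have h5 := congrFun (hGinv (m : G)) ⟨(n : M), n.2⟩
          exact h5) ⟨x, hx⟩
        have h5 := congrFun hsum ⟨x, hx⟩
        rw [hq, ← h3] at h4
        have h6 : θ x = (e : ℂ) * tr φ ⟨x, hx⟩ := h5
        have h7 : indFun (N.subgroupOf M) (tr φ) x = ((e ^ 2 : ℕ) : ℂ) * tr φ ⟨x, hx⟩ := h4
        rw [h7, h6]
        push_cast
        ring
      · rw [indFun_of_notMem (N.subgroupOf M) _ hx, hvan x hx, mul_zero]
    have hres := S4454.result (Γ := G) M N hNM hF.ne_top (by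
        intro h0
        have h4 : (N.subgroupOf M).index = 1 := by rw [h0, Subgroup.subgroupOf_self, Subgroup.index_top]
        rw [hq] at h4
        exact absurd h4 (Nat.one_lt_pow hF.pos.ne' hF.prime.one_lt).ne')
      (cyclic_quot hF) hF.free ⟨φ, hφ⟩ (fun x n => congrFun (hGinv x) n) ⟨θ, hθ⟩ e hram
    refine ⟨e, h3, ⟨F.card * f, hdeg⟩, ?_⟩
    have he2 : 1 ≤ e := Nat.one_le_iff_ne_zero.2 he0
    rcases hres with h | h
    · left
      have h4 : ((e - 1 : ℕ) : ℤ) = (e : ℤ) - 1 := by push_cast [he2]; ring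
      rw [← h4] at h
      exact_mod_cast h
    · right
      exact_mod_cast h

/-- B8: characters of `G` of degree prime to `|G : M|` -/
theorem b8_invariant {G : Type u} [Group G] [Finite G] {N M : Subgroup G} {q a : ℕ} (hF : Frob G N M q a) {d : ℕ}
    (hd : d ∈ charDegrees G) (hdm : d.Coprime M.index) :
    M.index * d ∈ charDegrees G ∨ q ^ a ∣ d ∨ ∃ e : ℕ, e ^ 2 = q ^ a ∧ e ∣ d ∧ (M.index ∣ e - 1 ∨ M.index ∣ e + 1) := by
  classical
  have := hF.normN
  have := hF.normM
  have := Fintype.ofFinite G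
  obtain ⟨χ, hχ, hχ1⟩ := H424.DegTools.mem_charDegrees.1 hd
  have hdeg : charDegree χ = d := by
    have h1 := Blocks.Basic.irr_one_eq_charDegree hχ
    rw [hχ1] at h1
    exact_mod_cast h1.symm
  have hθ : IsIrrCharacter M (fun m : M => χ m) :=
    H597.Degrees.isIrr_restrict_of_coprime M hχ (by rw [hdeg]; exact hdm.symm)
  let K0 : Subgroup G := Subgroup.closure ({x | x ∈ M ∧ χ x ≠ 0} ∪ (N : Set G))
  have hK0n : K0.Normal := by
    refine closure_normal ?_
    rintro s (⟨hs, hs'⟩ | hs) g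
    · left
      refine ⟨Subgroup.Normal.conj_mem inferInstance s hs g, ?_⟩
      rw [isIrr_isClassFunction hχ s g]
      exact hs'
    · right
      exact Subgroup.Normal.conj_mem (inferInstance : N.Normal) s hs g
  have hNK : N ≤ K0 := fun x hx => Subgroup.subset_closure (Or.inr hx)
  have hKM : K0 ≤ M := by
    rw [Subgroup.closure_le]
    rintro s (⟨hs, -⟩ | hs)
    · exact hs
    · exact hF.le hs
  rcases hF.chief K0 hK0n hNK hKM with hK | hK
  · right
    refine caseB hF hχ hχ1 hθ ?_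
    intro m hm hmN
    by_contra h0
    exact hmN (hK ▸ Subgroup.subset_closure (Or.inl ⟨hm, h0⟩))
  · left
    refine caseA hF hχ hχ1 hθ ?_
    intro L hL1 hL2
    rw [eq_top_iff]
    intro x _
    have h1 : K0 ≤ L.map M.subtype := by
      rw [Subgroup.closure_le]
      rintro s (⟨hs, hs'⟩ | hs)
      · exact ⟨⟨s, hs⟩, hL2 ⟨s, hs⟩ hs', rfl⟩
      · exact ⟨⟨s, hF.le hs⟩, hL1 hs, rfl⟩
    have h2 : (x : G) ∈ L.map M.subtype := h1 (by rw [hK]; exact x.2)
    obtain ⟨y, hy, hyx⟩ := h2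
    have h3 : y = x := Subtype.ext hyx
    rw [← h3]
    exact hy

end Cfsg.Agent.H104.AN
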